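import Cfsg.Agent.H69.OutCount
import Cfsg.Agent.Nodes.LeviDec

/-!
# Index and invariance of a parabolic subgroup of a root group datum

`θ` a dominant vector, `J` the nodes orthogonal to `θ`.

* `index_PJ_le` : `|G : P_J| ≤ ∑ q^(d r)`, the sum over the `W`-orbit of `θ`, `d r` a weighted distance from `θ`;
* `fix_PJ` : a frame automorphism fixing all nodes fixes `P_J`;
* `exists_conj` : the class of `P_J` is invariant under all automorphisms when there are no diagram symmetries.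
-/

set_option autoImplicit false
set_option linter.unusedSectionVars false

namespace Cfsg.Agent.H752.RgdIdx

open CoxeterSystem Cfsg.Agent.ChevalleyStructure.CoxeterGeom Cfsg.Agent.Tits.Roots Cfsg.Agent.Tits.Core
  Cfsg.Agent.Tits.RootComb Cfsg.Agent.Nodes.Reps Cfsg.Agent.Nodes.BNOf Cfsg.Agent.Nodes.StabComb
  Cfsg.Agent.Nodes.Bruhat Cfsg.Agent.Nodes.LeviDec Cfsg.Agent.KFacts.RgdAut Cfsg.Agent.KFacts.RgdDiag
  Cfsg.Agent.H69.OutCount

universe u

variable {I W : Type*} {Y : Type u} [Fintype I] [DecidableEq I] [Group W] [Group Y] {M : CoxeterMatrix I}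
  {cs : CoxeterSystem M W} {A : I → I → ℤ} {h : IsCartan M A} {p : ℕ} {T : Subgroup Y} {n : I → Y}
  {X : (I → ℤ) → Subgroup Y}

section

variable (R : RGD cs h p T n X)

/-- The cosets of `P` in the cells of the elements moving `θ` to `r`. -/
def Ce (P : Subgroup Y) (θ r : I → ℤ) : Set (Y ⧸ P) :=
  {x | ∃ g w, x = QuotientGroup.mk g ∧ Cell R.nsys cs h X w g ∧ rep cs h w θ = r}

include R

theorem exists_split {i : I} {b : Y} (hb : b ∈ RGD.B cs h T X) :
    ∃ u ∈ X (sr i), ∃ b' ∈ RGD.B cs h T X, b * n i = u * n i * b' := by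
  rw [← BJ_univ] at hb
  obtain ⟨v, hv, u, hu, t, ht, e⟩ := mem_BJ' R (Set.mem_univ i) (inv_mem hb)
  have e1 : b = t⁻¹ * u⁻¹ * v⁻¹ := by
    have : b = (b⁻¹)⁻¹ := (inv_inv b).symm
    rw [this, e]; group
  have hu' : t⁻¹ * u⁻¹ * t ∈ X (sr i) := by
    have h1 := R.tor _ (isRoot_sr cs h i) t⁻¹ (inv_mem ht)
    have h2 : t⁻¹ * u⁻¹ * t⁻¹⁻¹ ∈ cj t⁻¹ (X (sr i)) := conj_mem_cj.2 (inv_mem hu)
    rwa [h1, inv_inv] at h2
  have hnT : (n i)⁻¹ * t⁻¹ * n i ∈ T := by
    have h1 := mem_normalizer_iff_cj.1 (rp_simple cs R.nsys i).inv.mem_normalizer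
    have h2 : (n i)⁻¹ * t⁻¹ * (n i)⁻¹⁻¹ ∈ cj (n i)⁻¹ T := conj_mem_cj.2 (inv_mem ht)
    rwa [h1, inv_inv] at h2
  have hnV : (n i)⁻¹ * v⁻¹ * n i ∈ RGD.B cs h T X := by
    have h1 : Rp cs R.nsys (cs.simple i) (n i)⁻¹ := by
      have := (rp_simple cs R.nsys i).inv
      rwa [inv_simple] at this
    have h2 := conj_n_mem R (Set.mem_univ i) h1 (inv_mem hv)
    rwa [inv_inv, BJ_univ] at h2
  refine ⟨t⁻¹ * u⁻¹ * t, hu', ((n i)⁻¹ * t⁻¹ * n i) * ((n i)⁻¹ * v⁻¹ * n i), mul_mem (RGD.T_le_B hnT) hnV, ?_⟩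
  rw [e1]; group

theorem Ce_reflect [Finite Y] (P : Subgroup Y) (θ : I → ℤ) (i : I) (r : I → ℤ) :
    (Ce R P θ (rep cs h (cs.simple i) r)).ncard ≤ Nat.card (X (sr i)) * (Ce R P θ r).ncard := by
  have hsub : Ce R P θ (rep cs h (cs.simple i) r) ⊆
      (fun q : ↥(X (sr i)) × (Y ⧸ P) => ((q.1 : Y) * n i) • q.2) '' (Set.univ ×ˢ Ce R P θ r) := by
    rintro _ ⟨g, w, rfl, ⟨b₁, hb₁, k, hk, b₂, hb₂, rfl⟩, hw⟩
    obtain ⟨u, hu, b', hb', e⟩ := exists_split R (i := i) hb₁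
    have hk' : Rp cs R.nsys (cs.simple i * w) ((n i)⁻¹ * k) := by
      have := (rp_simple cs R.nsys i).inv.mul hk
      rwa [inv_simple] at this
    refine ⟨(⟨u, hu⟩, QuotientGroup.mk (b' * ((n i)⁻¹ * k) * b₂)), ⟨Set.mem_univ _, ?_⟩, ?_⟩
    · refine ⟨_, cs.simple i * w, rfl, ⟨b', hb', _, hk', b₂, hb₂, rfl⟩, ?_⟩
      rw [rep_mul_apply, hw, ← rep_mul_apply, cs.simple_mul_simple_self, map_one, Module.End.one_apply]
    · show (QuotientGroup.mk (u * n i * (b' * ((n i)⁻¹ * k) * b₂)) : Y ⧸ P) = _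
      congr 1
      have e2 : u * n i * (b' * ((n i)⁻¹ * k) * b₂) = (u * n i * b') * (n i)⁻¹ * k * b₂ := by group
      rw [e2, ← e]; group
  refine (Set.ncard_le_ncard hsub (Set.toFinite _)).trans ?_
  refine (Set.ncard_image_le (Set.toFinite _)).trans ?_
  rw [Set.ncard_prod, Set.ncard_univ]

/-- the base point -/
theorem Ce_self [Finite W] [Finite Y] {θ : I → ℤ} (hθ : Dom A θ) :
    (Ce R (PJ cs h T X (orth cs h θ)) θ θ).ncard ≤ 1 := by
  rw [Set.ncard_le_one (Set.toFinite _)]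
  have key : ∀ x ∈ Ce R (PJ cs h T X (orth cs h θ)) θ θ, x = QuotientGroup.mk 1 := by
    rintro _ ⟨g, w, rfl, hc, hw⟩
    have h1 := (mem_PJ_iff_cell R).2 ⟨w, mem_WJ_of_rep hθ hw, hc⟩
    exact (QuotientGroup.eq.2 (by simpa using h1)).symm
  intro a ha b hb
  rw [key a ha, key b hb]

end

/-- the reflection -/
def rf (A : I → I → ℤ) (i : I) (r : I → ℤ) : I → ℤ := r - pairing A i r • sr i

theorem rep_eq_rf (i : I) (r : I → ℤ) : rep cs h (cs.simple i) r = rf A i r := rep_simple_eq cs h i r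

/-- A table of weighted distances from `θ`. -/
structure DistOk (A : I → I → ℤ) (e : I → ℕ) (θ : I → ℤ) (O : List (I → ℤ)) (d : (I → ℤ) → ℕ) : Prop where
  top : θ ∈ O
  step : ∀ r ∈ O, r = θ ∨ ∃ i, rf A i r ∈ O ∧ d (rf A i r) + e i = d r
  closed : ∀ r ∈ O, ∀ i, rf A i r ∈ O

section

variable (R : RGD cs h p T n X)

include R

theorem ncard_Ce_le [Finite W] [Finite Y] {q : ℕ} (hq : 0 < q) {e : I → ℕ} (he : ∀ i, 0 < e i)
    (hX : ∀ i, Nat.card (X (sr i)) = q ^ e i) {θ : I → ℤ} (hθ : Dom A θ) {O : List (I → ℤ)} {d : (I → ℤ) → ℕ}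
    (hO : DistOk A e θ O d) {r : I → ℤ} (hr : r ∈ O) :
    (Ce R (PJ cs h T X (orth cs h θ)) θ r).ncard ≤ q ^ d r := by
  induction hN : d r using Nat.strong_induction_on generalizing r with
  | _ N ih =>
  rcases hO.step r hr with rfl | ⟨i, h1, h2⟩
  · exact (Ce_self R hθ).trans (Nat.one_le_pow _ _ hq)
  · have h3 := Ce_reflect R (PJ cs h T X (orth cs h θ)) θ i (rf A i r)
    have h4 : rep cs h (cs.simple i) (rf A i r) = r := by
      rw [← rep_eq_rf (cs := cs) (h := h), ← rep_mul_apply, cs.simple_mul_simple_self, map_one, Module.End.one_apply]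
    rw [h4, hX] at h3
    have h5 := ih (d (rf A i r)) (by have := he i; omega) h1 rfl
    calc _ ≤ q ^ e i * (Ce R (PJ cs h T X (orth cs h θ)) θ (rf A i r)).ncard := h3
      _ ≤ q ^ e i * q ^ d (rf A i r) := Nat.mul_le_mul_left _ h5
      _ = q ^ N := by rw [← pow_add, ← hN, ← h2, add_comm]

theorem sum_toFinset_le {α : Type*} [DecidableEq α] (L : List α) (f : α → ℕ) :
    ∑ r ∈ L.toFinset, f r ≤ (L.map f).sum := by
  induction L with
  | nil => simp
  | cons a L ih =>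
    rw [List.toFinset_cons, List.map_cons, List.sum_cons]
    by_cases ha : a ∈ L.toFinset
    · rw [Finset.insert_eq_self.2 ha]; omega
    · rw [Finset.sum_insert ha]; omega

/-- **The index of `P_J`.** -/
theorem index_PJ_le [Finite W] [Finite Y] (hG : GG cs h T X = ⊤) {q : ℕ} (hq : 0 < q) {e : I → ℕ}
    (he : ∀ i, 0 < e i) (hX : ∀ i, Nat.card (X (sr i)) = q ^ e i) {θ : I → ℤ} (hθ : Dom A θ)
    {O : List (I → ℤ)} {d : (I → ℤ) → ℕ} (hO : DistOk A e θ O d) :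
    (PJ cs h T X (orth cs h θ)).index ≤ (O.map fun r => q ^ d r).sum := by
  classical
  set P := PJ cs h T X (orth cs h θ) with hP
  have hmem : ∀ w : W, rep cs h w θ ∈ O := by
    intro w
    obtain ⟨ω, rfl⟩ := cs.wordProd_surjective w
    induction ω with
    | nil => rw [wordProd_nil, map_one, Module.End.one_apply]; exact hO.top
    | cons i ω ih =>
      rw [wordProd_cons, rep_mul_apply, rep_eq_rf]
      exact hO.closed _ ih i
  have h1 : (Set.univ : Set (Y ⧸ P)) ⊆ ⋃ r ∈ O.toFinset, Ce R P θ r := by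
    intro x _
    obtain ⟨g, rfl⟩ := QuotientGroup.mk_surjective x
    have hg : g ∈ GG cs h T X := by rw [hG]; exact Subgroup.mem_top g
    obtain ⟨w, hw⟩ := (mem_GG R).1 hg
    exact Set.mem_iUnion₂.2 ⟨rep cs h w θ, List.mem_toFinset.2 (hmem w), g, w, rfl, hw, rfl⟩
  have h2 : P.index = (Set.univ : Set (Y ⧸ P)).ncard := by
    rw [Subgroup.index_eq_card, Set.ncard_univ]
  rw [h2]
  refine (Set.ncard_le_ncard h1 (Set.toFinite _)).trans ?_
  refine (Finset.set_ncard_biUnion_le _ _).trans ?_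
  refine (Finset.sum_le_sum fun r hr => ncard_Ce_le R hq he hX hθ hO (List.mem_toFinset.1 hr)).trans ?_
  exact sum_toFinset_le R O _

/-- `P_J` is proper when `J` is not everything. -/
theorem PJ_ne_top [Finite W] {J : Set I} {i : I} (hi : i ∉ J) : PJ cs h T X J ≠ ⊤ := by
  intro htop
  obtain ⟨u, hu, hu1⟩ := exists_ne_one R i
  have h1 : n i * u * (n i)⁻¹ ∈ X (-sr i) := by
    have := R.conj_mem (rp_simple cs R.nsys i) (isRoot_sr cs h i) hu
    rwa [rep_simple_sr] at this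
  have h2 : n i * u * (n i)⁻¹ ∈ VNJ cs h X J := by
    refine RGD.le_Sup ?_ h1
    show -(-sr i) ∈ NotJ cs h J
    rw [neg_neg]
    exact sr_mem_NotJ hi
  refine hu1 ?_
  have h3 := eq_one_of_mem_VNJ_of_mem_PJ R h2 (by rw [htop]; exact Subgroup.mem_top _)
  exact mul_eq_left.1 (mul_inv_eq_one.1 h3)

/-- A frame automorphism fixing all nodes fixes `P_J`. -/
theorem fix_PJ [Finite W] {J : Set I} {β : MulAut Y} (D : Diag T X β 1) : Fix β (PJ cs h T X J) := by
  have hr : ∀ {r : I → ℤ}, IsRoot cs h r → ∀ {β : MulAut Y}, Diag T X β 1 → ∀ x, β x ∈ X r ↔ x ∈ X r := by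
    intro r hr β D x
    exact D.root_comp R (fun i j => rfl) hr x
  have key : ∀ β : MulAut Y, Diag T X β 1 → ∀ x, x ∈ PJ cs h T X J → β x ∈ PJ cs h T X J := by
    intro β D x hx
    have h1 : PJ cs h T X J ≤ (PJ cs h T X J).comap β.toMonoidHom := by
      refine sup_le (sup_le ?_ (RGD.Sup_le fun r hrS y hy => ?_)) (RGD.Sup_le fun r hrS y hy => ?_)
      · intro t ht
        exact LJ_le_PJ (T_le_LJ ((D.tor t).2 ht))
      · exact LJ_le_PJ (X_le_LJ hrS ((hr hrS.1 D y).2 hy))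
      · exact VJ_le_PJ (RGD.le_Sup hrS ((hr hrS.1 D y).2 hy))
    exact h1 hx
  intro x
  refine ⟨fun hx => ?_, key β D x⟩
  have h1 := key β⁻¹ (by have := D.inv; rwa [inv_one] at this) _ hx
  rwa [MulAut.inv_apply_self] at h1

/-- **The class of `P_J` is invariant.** -/
theorem exists_conj [Finite W] [Finite Y] [Fact p.Prime] (hG1 : RGD.Sup X {x | IsRoot cs h x} = ⊤)
    (hone : ∀ (β : MulAut Y) (σ : Equiv.Perm I), Diag T X β σ → σ = 1) (J : Set I) (α : MulAut Y) :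
    ∃ s : Y, (PJ cs h T X J).map α.toMonoidHom = (PJ cs h T X J).map (MulAut.conj s).toMonoidHom := by
  obtain ⟨g, σ, D⟩ := exists_diag_conj R hG1 α
  obtain rfl := hone _ _ D
  have h1 := fix_iff.1 (fix_PJ R (J := J) D)
  refine ⟨g⁻¹, ?_⟩
  have h2 : (PJ cs h T X J).map (MulAut.conj g * α).toMonoidHom =
      ((PJ cs h T X J).map α.toMonoidHom).map (MulAut.conj g).toMonoidHom := by
    rw [Subgroup.map_map]; rfl
  rw [h2] at h1
  have h3 := congrArg (fun L : Subgroup Y => L.map (MulAut.conj g⁻¹).toMonoidHom) h1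
  simp only [Subgroup.map_map] at h3
  have h4 : ((MulAut.conj g⁻¹).toMonoidHom).comp ((MulAut.conj g).toMonoidHom.comp α.toMonoidHom) =
      α.toMonoidHom := by
    ext x
    simp [mul_assoc]
  rw [h4] at h3
  exact h3

end

end Cfsg.Agent.H752.RgdIdx
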